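import Cfsg.Agent.N2.Sp1.Sieve
import Cfsg.Agent.N2.Sp.GHN

/-!
# N2 (S3519), the row of HN: the exact sieve (helper23; generated with notes/N2/sp45)
-/

set_option autoImplicit false
set_option Elab.async false

namespace Cfsg.Agent.N2.Sp3.HN

open Cfsg Cfsg.Agent.N2.Sp Cfsg.Agent.N2.Sp.HN Cfsg.Agent.N2.Sp1

/-- the types in the order of the search -/
def O2 : Sp.Out :=
  [(4, 12, 2948178), (3, 1, 2948178), (21, 1886832, 2358541), (12, 101121, 2948178), (11, 17474, 2948178), (20,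
    273028, 2948178), (10, 648, 2948178), (8, 1, 2948178), (9, 1, 2948178), (6, 1429, 2948178), (19, 126403,
    2948178), (7, 4822, 2948178), (5, 76, 2948178), (2, 1, 2948178), (1, 1, 2948178)]

/-- the solutions -/
def SOL : List (List ℕ) := [
  [1, 120, 855, 5120, 0, 3120, 0, 0, 3072, 3072, 0, 0, 0, 0, 0, 0, 0, 0, 0, 0, 0, 0, 0, 0, 0, 0, 0, 0, 0, 0, 0, 0,
    0, 0, 0, 0, 0, 0, 0, 0, 0, 0, 0],
  [1, 120, 855, 5120, 0, 3120, 0, 0, 0, 0, 6144, 0, 0, 0, 0, 0, 0, 0, 0, 0, 0, 0, 0, 0, 0, 0, 0, 0, 0, 0, 0, 0, 0,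
    0, 0, 0, 0, 0, 0, 0, 0, 0, 0]]

theorem okS : chkS D R
    [[1, 200, 55, 0, 0, 0, 0, 0, 0, 0, 1024, 0, 0, 0, 0, 0, 0, 0, 0, 0, 0, 0, 0, 0, 0, 0, 0, 0, 0, 0, 0, 0, 0, 0, 0,
    0, 0, 0, 0, 0, 0, 0, 0]]
    1280 [1, 2, 5, 10] [1280]
    [[], [(1208, 0), (1119, 1), (492, 2), (880, 3), (1168, 4), (1279, 5)], [(664, 0), (31, 1), (971, 2), (15, 3),
    (1279, 9)], [(367, 0), (1053, 1), (398, 2)], [(1, 43)]] = true := by decide +kernel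

end Cfsg.Agent.N2.Sp3.HN
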