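import Cfsg.Agent.N2.SpK.Mul
import Cfsg.Agent.N2.Sp.Eng

/-!
# N2 (S3519), sporadic rows: class multiplication coefficients from the table (helper23)

`sc_free` : two elements with trivial common centraliser need a large coefficient; `sc_zero` : a coefficient which vanishes.
-/

set_option autoImplicit false

namespace Cfsg.Agent.N2.Sp3

open Cfsg Cfsg.Agent.TAB Cfsg.Agent.TAB.Eng Cfsg.Agent.TAB.Use Cfsg.Agent.TH.Spor Cfsg.Agent.TwoF.SpO Cfsg.Agent.N2.SpK
open Subgroup

variable {G : Type} [Group G] [Finite G] {D : Dat} {T : TD G D} {R : Rows}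

theorem le_cn (hm : T.Mass) (x : G) : D.N ≤ D.cnt (T.ty x) * cn x := by
  rw [← hm.1, ← card_class x, ← hm.2 _ (T.lt x)]
  exact Nat.mul_le_mul_right _ (Nat.card_le_card_of_injective (fun g => ⟨g.1, TD.ty_isConj g.2⟩)
    fun _ _ e => Subtype.ext (congrArg Subtype.val e :))

theorem one_of_inv (hm : T.Mass) (hU : Unif T) {y : G} (hy : orderOf y = 2) : One T (T.ty y) := by
  refine ⟨y, rfl, le_of_eq ?_⟩
  rw [← card_class y, ← hm.2 _ (T.lt y)]
  refine congrArg (· * _) (Nat.card_congr (Equiv.subtypeEquivRight fun g => ⟨fun hg => ?_, TD.ty_isConj⟩))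
  obtain ⟨k, hk⟩ := hU y g (hy ▸ Nat.prime_two) hg.symm
  rw [← pow_mod_orderOf, hy] at hk
  rcases Nat.mod_two_eq_zero_or_one k with e | e <;> rw [e] at hk
  · rw [pow_zero, isConj_one_right] at hk
    have h1 := T.ord g
    rw [hg, ← T.ord, hy, hk, orderOf_one] at h1
    omega
  · rwa [pow_one] at hk

/-- the coefficients which give the characteristic function of the type `c` -/
noncomputable def scZ (D : Dat) (R : Rows) (c : ℕ) : List ℤ := zz D 2 [(1, c)] (irows R) ++ zz D 1 [(1, c)] (prows R)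

/-- the check: `f V(c) (∑ z w(a) w(b))` -/
noncomputable def scB (D : Dat) (R : Rows) (c : ℕ) (P : List (ℕ × ℕ)) (f : ℕ × ℕ → ℤ → ℤ → Bool) : Bool :=
  okT D R && Glue.frcM (irows R ++ prows R) fun W => frcLZ (scZ D R c) fun z =>
    frcLZ (accP z W (List.replicate D.n 0)) fun V =>
      allL (fun t => decide (0 ≤ nth V t)) (List.range D.n) && allL (fun p => f p (nth V c) (sumP p.1 p.2 z W)) P

theorem sc_spec (hm : T.Mass) (h : Tab T R) {c : ℕ} {P : List (ℕ × ℕ)} {f : ℕ × ℕ → ℤ → ℤ → Bool}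
    (hc : scB D R c P f = true) {x y : G} (hy : One T (T.ty y)) (hP : (T.ty x, T.ty y) ∈ P) :
    ∃ L S : ℤ, f (T.ty x, T.ty y) L S = true ∧ ∀ {ι : Type} (g : ι → G), Function.Injective g →
      (∀ i, T.ty (g i * x * (g i)⁻¹ * y) = c) → Nat.card ι * L ≤ D.N * S := by
  classical
  have := Fintype.ofFinite G
  rw [scB, Glue.frcM_eq, frcLZ_eq, frcLZ_eq, Bool.and_eq_true, Bool.and_eq_true] at hc
  obtain ⟨h1, h2, h3⟩ := hc
  have H := rw_of hm h h1
  refine ⟨_, _, allL_spec h3 _ hP, fun {ι} g hg hi => ?_⟩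
  have h4 := sum_accP' x y (scZ D R c) _ _ (List.forall_mem_append.2 ⟨H.a y, H.b y hy⟩) (List.length_replicate (a := 0))
  have h5 : ∑ a, nth (List.replicate D.n 0) (T.ty (a * x * a⁻¹ * y)) = 0 :=
    Finset.sum_eq_zero fun a _ => by
      rw [nth_eq, List.getD_eq_getElem _ _ (by rw [List.length_replicate]; exact T.lt _), List.getElem_replicate]
  have := Finite.of_injective g hg
  have := Fintype.ofFinite ι
  rw [h5, zero_add, hm.1] at h4
  rw [← h4, Nat.card_eq_fintype_card, ← Finset.card_univ, ← Finset.card_image_of_injective _ hg, ← nsmul_eq_mul,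
    ← Finset.sum_const]
  refine le_trans (le_of_eq (Finset.sum_congr rfl fun a ha => ?_)) (Finset.sum_le_sum_of_subset_of_nonneg
    (Finset.subset_univ _) fun a _ _ => of_decide_eq_true (allL_spec h2 _ (List.mem_range.2 (T.lt _))))
  obtain ⟨i, -, rfl⟩ := Finset.mem_image.1 ha
  rw [hi]

/-- **the coefficient vanishes** -/
theorem sc_zero (hm : T.Mass) (h : Tab T R) {c : ℕ} {P : List (ℕ × ℕ)}
    (hc : scB D R c P (fun _ L S => decide (D.N * S < L)) = true) {x y : G} (hy : One T (T.ty y))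
    (hP : (T.ty x, T.ty y) ∈ P) : T.ty (x * y) ≠ c := fun e => by
  obtain ⟨L, S, h1, h2⟩ := sc_spec hm h hc hy hP
  have h3 := h2 (fun _ : Unit => 1) (fun _ _ _ => rfl) fun _ => by simpa using e
  have h4 := of_decide_eq_true h1
  simp only [Nat.card_unique, Nat.cast_one, one_mul] at h3
  omega

omit [Finite G] in
theorem inj_cent {x y : G} (h : ∀ g : G, g * x = x * g → g * y = y * g → g = 1) :
    Function.Injective fun p : centralizer ({y} : Set G) × centralizer ({x} : Set G) => (p.1 : G) * p.2 := by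
  rintro ⟨d, e⟩ ⟨d', e'⟩ (k : (d : G) * e = d' * e')
  have h1 : (d'⁻¹ * d : centralizer ({y} : Set G)) = ((e' * e⁻¹ : centralizer ({x} : Set G)) : G) := by
    rw [coe_mul, coe_mul, coe_inv, coe_inv, inv_mul_eq_iff_eq_mul, ← mul_assoc, ← k, mul_inv_cancel_right]
  have h2 := h _ (h1 ▸ mem_centralizer_singleton_iff.1 (e' * e⁻¹).2) (mem_centralizer_singleton_iff.1 (d'⁻¹ * d).2)
  have h3 : d' = d := inv_mul_eq_one.1 (Subtype.ext h2)
  subst h3
  rw [Subtype.ext (mul_left_cancel k)]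

/-- two elements with large centralisers -/
theorem cn_mul_le {x y : G} (h : ∀ g : G, g * x = x * g → g * y = y * g → g = 1) : cn y * cn x ≤ Nat.card G := by
  rw [cn, cn, ← Nat.card_prod]
  exact Nat.card_le_card_of_injective _ (inj_cent h)

/-- **the coefficient is small** -/
theorem sc_free (hm : T.Mass) (h : Tab T R) {c : ℕ} {P : List (ℕ × ℕ)}
    (hc : scB D R c P (fun p L S => decide (0 ≤ L) && decide ((D.cnt p.1 * D.cnt p.2 : ℕ) * S < D.N * L)) = true)
    {x y : G} (hy : One T (T.ty y)) (hP : (T.ty x, T.ty y) ∈ P)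
    (hf : ∀ g : G, g * x = x * g → g * y = y * g → g = 1) : T.ty (x * y) ≠ c := fun e => by
  obtain ⟨L, S, h1, h2⟩ := sc_spec hm h hc hy hP
  have h3 := h2 _ (inj_cent hf) fun p => by
    have k1 := mem_centralizer_singleton_iff.1 p.1.2
    have k2 := mem_centralizer_singleton_iff.1 p.2.2
    rw [← e, ← T.conj (x * y) p.1, mul_inv_rev, mul_assoc (p.1 : G) p.2, k2]
    congr 1
    rw [mul_assoc _ _ y, mul_assoc _ _ y, (Commute.inv_left k1).eq]
    group
  rw [Bool.and_eq_true, decide_eq_true_eq, decide_eq_true_eq] at h1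
  have h4 : (D.N : ℤ) ≤ D.cnt (T.ty x) * cn x := by exact_mod_cast le_cn hm x
  have h5 : (D.N : ℤ) ≤ D.cnt (T.ty y) * cn y := by exact_mod_cast le_cn hm y
  have h0 : (0 : ℤ) < D.N := by exact_mod_cast hm.1 ▸ Nat.card_pos
  rw [Nat.card_prod] at h3
  change ((cn y * cn x : ℕ) : ℤ) * L ≤ _ at h3
  have h6 := mul_le_mul_of_nonneg_right (mul_le_mul h4 h5 h0.le (by positivity)) h1.1
  have h7 := mul_le_mul_of_nonneg_left h3 (Int.natCast_nonneg (D.cnt (T.ty x) * D.cnt (T.ty y)))
  have h8 := mul_lt_mul_of_pos_left h1.2 h0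
  push_cast at h7 h8
  nlinarith

end Cfsg.Agent.N2.Sp3
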