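import Cfsg.Agent.N2.Sp1.Sieve

/-!
# N2 (S3519), sporadic groups: the exact sieve with short rows, chosen inequalities and a chosen order (helper23)
-/

set_option autoImplicit false
set_option linter.unusedSectionVars false

namespace Cfsg.Agent.N2.Sp3

open Cfsg Cfsg.Agent.FP3 Cfsg.Agent.TAB.Eng Cfsg.Agent.TAB.Use Cfsg.Agent.SB.SporL Cfsg.Agent.TH.Spor Cfsg.Agent.N2.Sp
open Cfsg.Agent.N2.Sp1
open Cfsg.Agent.SM.Sp (cond_ff val)

variable {K : Type} [Group K] [Finite K] {D : Dat} {T : TD K D} {R : Rows} {ν : List ℕ} {A : Subgroup K}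

/-- the first entries -/
noncomputable def tkz (n : ℕ) (w : List ℤ) : List ℤ := mapL (nth w) (List.range n)

theorem val_tkz {n : ℕ} (h : ∀ t, n ≤ t → num T A t = 0) (w : List ℤ) : val T A (tkz n w) = val T A w :=
  Finset.sum_congr rfl fun t _ => by
    rcases lt_or_ge t n with h1 | h1
    · rw [tkz, nth_range _ h1]
    · rw [h t h1, Nat.cast_zero, zero_mul, zero_mul]

/-- certificates: inequalities, order of the types, the rest -/
abbrev Cu : Type := List ℕ × List ℕ × Ct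

/-- the check for one order -/
noncomputable def oneC (D : Dat) (ν : List ℕ) (O : Sp.Out) (WP WR : List (List ℤ)) (SOL : List (List ℕ)) (c : Cu) : Bool :=
  cond (Nat.ble (Nat.mul (Nat.pow (Nat.sub c.2.2.2.1 1) 3) c.2.2.1) D.N)
    (flt (fun t => anyL (fun e => Nat.beq e.1 t && Nat.ble e.2.1 c.2.2.1 && Nat.ble c.2.2.1 e.2.2) O &&
      Nat.beq (Nat.mod c.2.2.1 (D.ord t)) 0 && Nat.ble (thr D ν c.2.2.2.1 c.2.2.1 t) c.2.2.1) (mapL Prod.fst O) fun V0 =>
      flt (fun t => allL (fun d => frc (D.pwf t d) fun u => Nat.beq u 0 || mem V0 u) [2, 3, 5]) V0 fun V =>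
        cond (allL (mem c.2.1) V) (Sp.frcW (mapL (ntd WP []) c.1) fun WP' =>
          one D WP' WR SOL (thr D ν c.2.2.2.1 c.2.2.1) c.2.2.1 c.2.1 c.2.2.2.2.1 c.2.2.2.2.2) false) false

/-- the check for a list of orders -/
noncomputable def chkC (D : Dat) (R : Rows) (ν : List ℕ) (n : ℕ) (O : Sp.Out) (SOL : List (List ℕ)) (CL : List Cu) : Bool :=
  cond (okIdx R && allL (fun e => Nat.blt e.1 n) O && Nat.blt 0 n) (frcL ν fun ν' =>
    Sp.frcW (mapL (tkz n) (rowsP R)) fun WP => Sp.frcW (mapL (tkz n) (mapL Prod.snd R.rel)) fun WR =>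
    allL (oneC D ν' O WP WR SOL) CL) false

/-- **subgroups which are not good** -/
theorem badC (H : Sp.Hy T R ν) (hb : ¬ Good A) {O : Sp.Out} {U : ℕ} (hO : Res T A O U) {SOL : List (List ℕ)}
    {CL : List Cu} {n : ℕ} (h : chkC D R ν n O SOL CL = true) (hm : Nat.card A ∈ CL.map fun c => c.2.2.1) :
    ∃ v ∈ SOL, Vec T A v := by
  obtain ⟨h1, h2⟩ := cond_ff h
  rw [Bool.and_eq_true, Bool.and_eq_true] at h1
  obtain ⟨⟨h1, hn⟩, hn0⟩ := h1
  have hz : ∀ t, n ≤ t → num T A t = 0 := fun t ht => by_contra fun h3 => by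
    obtain ⟨a, ha, rfl⟩ := num_ne h3
    rcases hO.2 a ha with h4 | ⟨e, h4, h5, -⟩
    · exact absurd (Nat.blt_eq ▸ hn0 : 0 < n) (not_lt.2 (h4 ▸ ht))
    · exact absurd (Nat.blt_eq ▸ allL_spec hn e h4 : e.1 < n) (not_lt.2 (h5 ▸ ht))
  rw [frcL_eq, Sp.frcW_eq, Sp.frcW_eq] at h2
  obtain ⟨⟨I, V', m, f, ds, C⟩, h3, rfl : m = _⟩ := List.mem_map.1 hm
  obtain ⟨h4, h5⟩ := cond_ff (allL_spec h2 _ h3)
  rw [flt_eq, flt_eq] at h5
  obtain ⟨h5, h5'⟩ := cond_ff h5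
  rw [Sp.frcW_eq] at h5'
  have hf : ∀ a ∈ A, f ≤ fx A a := fun a ha => H.le_fx hb le_rfl (Nat.le_of_ble_eq_true h4) ha
  have h6 : Sup T A ((mapL Prod.fst O).filter fun t => anyL (fun e => Nat.beq e.1 t && Nat.ble e.2.1 (Nat.card A) &&
      Nat.ble (Nat.card A) e.2.2) O && Nat.beq (Nat.mod (Nat.card A) (D.ord t)) 0 &&
      Nat.ble (thr D ν f (Nat.card A) t) (Nat.card A)) := fun a ha => (hO.2 a ha).imp id fun ⟨e, h6, h7, h8, h9⟩ => by
    refine List.mem_filter.2 ⟨mapL_eq _ O ▸ List.mem_map.2 ⟨e, h6, h7.symm⟩, ?_⟩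
    rw [anyL_of h6 (by rw [h7, Nat.beq_refl, Nat.ble_eq_true_of_le h8, Nat.ble_eq_true_of_le h9]; rfl), ← T.ord,
      show Nat.mod (Nat.card A) (orderOf a) = 0 from Nat.mod_eq_zero_of_dvd (A.orderOf_dvd_natCard ha),
      Nat.ble_eq_true_of_le ((thr_le H (hf a ha)).trans (num_le A _))]
    rfl
  refine one_spec (H.num0 A) (fun w hw => ?_) (fun w hw => ?_) (fun a ha => (h6 a ha).imp id fun h7 =>
    of_mem (allL_spec h5 _ (List.mem_filter.2 ⟨h7, allL_of fun d _ => ?_⟩)))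
    (fun t _ => or_iff_not_imp_left.2 fun h7 => ?_) h5'
  · rw [mapL_eq] at hw
    obtain ⟨i, -, rfl⟩ := List.mem_map.1 hw
    rcases ntd_mem (mapL (tkz n) (rowsP R)) [] i with h7 | h7
    · rw [h7]
      exact (Finset.sum_eq_zero fun t _ => mul_zero _).ge
    · generalize ntd (mapL (tkz n) (rowsP R)) [] i = y at h7
      rw [mapL_eq] at h7
      obtain ⟨w, h8, rfl⟩ := List.mem_map.1 h7
      rw [val_tkz hz]
      exact H.pos (pos_nil A) w h8
  · rw [mapL_eq] at hw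
    obtain ⟨w, h8, rfl⟩ := List.mem_map.1 hw
    rw [Dv, val_tkz hz]
    exact dv_rel H.tab h1 A w h8
  · rw [frc_eq, ← T.pow]
    rcases h6 _ (A.pow_mem ha d) with h8 | h8
    · rw [h8]
      rfl
    · rw [mem_of h8, Bool.or_true]
  · obtain ⟨a, ha, rfl⟩ := num_ne h7
    exact thr_le H (hf a ha)

end Cfsg.Agent.N2.Sp3
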